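import Mathlib

/-!
# Two by two matrices with a prescribed irreducible characteristic polynomial
-/

set_option autoImplicit false

namespace Cfsg.Agent.Lib.ThSp4

open Matrix

variable {F : Type*} [Field F]

/-- Two by two matrices. -/
abbrev M2 (F : Type*) := Matrix (Fin 2) (Fin 2) F

/-- The companion matrix of `X² - t X + δ`. -/
def comp (t δ : F) : M2 F := !![0, -δ; 1, t]

lemma comp_det (t δ : F) : (comp t δ).det = δ := by
  simp [comp, Matrix.det_fin_two]

lemma comp_trace (t δ : F) : (comp t δ).trace = t := by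
  simp [comp, Matrix.trace_fin_two]

/-- A matrix with a cyclic vector is conjugate to the companion matrix of its invariants. -/
lemma cyclic_conj (A : M2 F) (v : Fin 2 → F) :
    A * !![v 0, (A *ᵥ v) 0; v 1, (A *ᵥ v) 1] =
      !![v 0, (A *ᵥ v) 0; v 1, (A *ᵥ v) 1] * comp A.trace A.det := by
  ext i j
  fin_cases i <;> fin_cases j <;>
    simp [comp, Matrix.mul_apply, Fin.sum_univ_two, Matrix.mulVec, dotProduct, Matrix.trace_fin_two,
      Matrix.det_fin_two]
  all_goals ring

/-- The determinant of the matrix `(v, A v)`. -/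
lemma cyclic_det (A : M2 F) (v : Fin 2 → F) :
    (!![v 0, (A *ᵥ v) 0; v 1, (A *ᵥ v) 1] : M2 F).det =
      v 0 * (A 1 0 * v 0 + A 1 1 * v 1) - v 1 * (A 0 0 * v 0 + A 0 1 * v 1) := by
  simp [Matrix.det_fin_two, Matrix.mulVec, dotProduct, Fin.sum_univ_two]
  ring

/-- A matrix without eigenvalues is conjugate to the companion matrix. -/
lemma exists_conj_comp {t δ : F} (hP : ∀ y : F, y ^ 2 - t * y + δ ≠ 0) {M : M2 F}
    (ht : M.trace = t) (hd : M.det = δ) :
    ∃ k : M2 F, k.det ≠ 0 ∧ M * k = k * comp t δ := by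
  have h10 : M 1 0 ≠ 0 := by
    intro h0
    apply hP (M 0 0)
    rw [Matrix.trace_fin_two] at ht
    rw [Matrix.det_fin_two, h0] at hd
    rw [← ht, ← hd]
    ring
  refine ⟨!![(![1, 0] : Fin 2 → F) 0, (M *ᵥ ![1, 0]) 0; (![1, 0] : Fin 2 → F) 1, (M *ᵥ ![1, 0]) 1],
    ?_, ?_⟩
  · rw [cyclic_det]
    simpa using h10
  · have := cyclic_conj M ![1, 0]
    rw [ht, hd] at this
    exact this

/-- Nonscalar matrices have a cyclic vector. -/
lemma exists_cyclic {A : M2 F} (hA : ¬ ∃ s : F, A = s • 1) :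
    ∃ k : M2 F, k.det ≠ 0 ∧ A * k = k * comp A.trace A.det := by
  by_cases h10 : A 1 0 = 0
  · by_cases h01 : A 0 1 = 0
    · have hne : A 0 0 ≠ A 1 1 := by
        intro h
        apply hA
        refine ⟨A 0 0, ?_⟩
        ext i j
        fin_cases i <;> fin_cases j <;> simp [h10, h01, ← h]
      refine ⟨_, ?_, cyclic_conj A ![1, 1]⟩
      rw [cyclic_det]
      simp [h10, h01]
      intro h
      apply hne
      linear_combination -h
    · refine ⟨_, ?_, cyclic_conj A ![0, 1]⟩
      rw [cyclic_det]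
      simpa using h01
  · refine ⟨_, ?_, cyclic_conj A ![1, 0]⟩
    rw [cyclic_det]
    simpa using h10

/-- The target condition on a block. -/
def Good (δ : F) (A : M2 F) : Prop :=
  A = δ • 1 ∨ (A.det = δ ^ 2 ∧ A.trace ≠ 2 * δ ∧ ¬ ∃ s : F, A = s • 1)

/-- Existence of a point on the conic. -/
lemma exists_conic [Fintype F] {t δ τ : F} (hδ : δ ≠ 0) (ht : t ≠ 0) (hτ : τ ≠ 2 * δ) :
    ∃ a c : F, a ^ 2 - t * a + δ ^ 2 * c ^ 2 + τ * a * c - δ * t * c + δ = 0 := by
  classical
  by_cases h2 : (2 : F) = 0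
  · have hτ0 : τ ≠ 0 := by
      intro h
      apply hτ
      rw [h, h2, zero_mul]
    have hc : ringChar F = 2 := CharP.ringChar_of_prime_eq_zero Nat.prime_two (by exact_mod_cast h2)
    obtain ⟨a, ha⟩ := FiniteField.isSquare_of_char_two hc (δ ^ 2 * (t / τ) ^ 2 - δ * t * (t / τ) + δ)
    refine ⟨a, t / τ, ?_⟩
    have h1 : τ * (t / τ) = t := by field_simp
    have h3 : (a ^ 2 : F) = δ ^ 2 * (t / τ) ^ 2 - δ * t * (t / τ) + δ := by
      rw [ha]; ring
    have h4 : (τ * a * (t / τ) : F) = t * a := by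
      rw [mul_comm τ a, mul_assoc, h1]; ring
    rw [h4, h3]
    linear_combination (δ ^ 2 * (t / τ) ^ 2 - δ * t * (t / τ) + δ) * h2
  · have hodd : Fintype.card F % 2 = 1 := FiniteField.odd_card_of_char_ne_two (by
      intro h
      apply h2
      have := ringChar.Nat.cast_ringChar (R := F)
      rw [h] at this
      exact_mod_cast this)
    -- the discriminant
    have key : ∃ y c : F, y ^ 2 = (τ ^ 2 - 4 * δ ^ 2) * c ^ 2 + (-2 * τ * t + 4 * δ * t) * c + (t ^ 2 - 4 * δ) := by
      by_cases h4 : τ ^ 2 - 4 * δ ^ 2 = 0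
      · have h5 : τ = -(2 * δ) := by
          have : (τ - 2 * δ) * (τ + 2 * δ) = 0 := by linear_combination h4
          rcases mul_eq_zero.mp this with h | h
          · exact absurd (sub_eq_zero.mp h) hτ
          · linear_combination h
        have h6 : (8 * δ * t : F) ≠ 0 := by
          refine mul_ne_zero (mul_ne_zero ?_ hδ) ht
          have : (8 : F) = 2 * 2 * 2 := by norm_num
          rw [this]
          exact mul_ne_zero (mul_ne_zero h2 h2) h2
        refine ⟨0, -(t ^ 2 - 4 * δ) / (8 * δ * t), ?_⟩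
        have h7 : (8 * δ * t) * (-(t ^ 2 - 4 * δ) / (8 * δ * t)) = -(t ^ 2 - 4 * δ) := by
          rw [← mul_div_assoc, mul_div_cancel_left₀ _ h6]
        rw [h4, h5]
        linear_combination -h7
      · obtain ⟨y, c, h⟩ := FiniteField.exists_root_sum_quadratic (R := F)
          (f := Polynomial.X ^ 2)
          (g := -(Polynomial.C (τ ^ 2 - 4 * δ ^ 2) * Polynomial.X ^ 2 +
            Polynomial.C (-2 * τ * t + 4 * δ * t) * Polynomial.X + Polynomial.C (t ^ 2 - 4 * δ)))
          (Polynomial.degree_X_pow 2) (by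
            rw [Polynomial.degree_neg]
            exact Polynomial.degree_quadratic h4) hodd
        refine ⟨y, c, ?_⟩
        simp only [Polynomial.eval_pow, Polynomial.eval_X, Polynomial.eval_neg, Polynomial.eval_add,
          Polynomial.eval_mul, Polynomial.eval_C] at h
        linear_combination h
    obtain ⟨y, c, hy⟩ := key
    refine ⟨(t - τ * c + y) / 2, c, ?_⟩
    field_simp
    linear_combination hy

/-- Factorization of a suitable matrix into two matrices with the prescribed invariants. -/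
lemma exists_factor_of_comp [Fintype F] {t δ τ : F} (hδ : δ ≠ 0) (ht : t ≠ 0) (hτ : τ ≠ 2 * δ) :
    ∃ Y₁ Y₂ : M2 F, Y₁ * Y₂ = comp τ (δ ^ 2) ∧ Y₁.trace = t ∧ Y₁.det = δ ∧ Y₂.trace = t ∧ Y₂.det = δ := by
  obtain ⟨a, c, h⟩ := exists_conic (t := t) (δ := δ) (τ := τ) hδ ht hτ
  set e := t - a with he
  set b := c * δ ^ 2 + a * τ - δ * t with hb
  have hdet : a * e - b * c = δ := by
    rw [he, hb]
    linear_combination -h
  refine ⟨!![a, b; c, e], δ⁻¹ • !![-b, -(e * δ ^ 2) - b * τ; a, c * δ ^ 2 + a * τ], ?_, ?_, ?_, ?_, ?_⟩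
  · ext i j
    fin_cases i <;> fin_cases j <;>
      simp [comp, Matrix.mul_apply, Fin.sum_univ_two, Matrix.smul_apply]
    · field_simp
      ring
    · field_simp
      linear_combination (-δ ^ 2) * hdet
    · field_simp
      linear_combination hdet
    · field_simp
      linear_combination τ * hdet
  · rw [Matrix.trace_fin_two]
    simp [he]
  · rw [Matrix.det_fin_two]
    simpa using hdet
  · rw [Matrix.trace_fin_two]
    simp
    rw [hb]
    field_simp
    ring
  · rw [Matrix.det_fin_two]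
    simp
    field_simp
    linear_combination (δ ^ 2) * hdet

/-- Factorization of a good matrix. -/
lemma exists_factor [Fintype F] {t δ : F} (hδ : δ ≠ 0) (ht : t ≠ 0) {A : M2 F} (hA : Good δ A) :
    ∃ Y₁ Y₂ : M2 F, Y₁ * Y₂ = A ∧ Y₁.trace = t ∧ Y₁.det = δ ∧ Y₂.trace = t ∧ Y₂.det = δ := by
  rcases hA with rfl | ⟨hd, htr, hns⟩
  · refine ⟨comp t δ, !![t, δ; -1, 0], ?_, comp_trace _ _, comp_det _ _, ?_, ?_⟩
    · ext i j
      fin_cases i <;> fin_cases j <;>
        simp [comp, Matrix.mul_apply, Fin.sum_univ_two]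
    · rw [Matrix.trace_fin_two]
      simp
    · rw [Matrix.det_fin_two]
      simp
  · obtain ⟨k, hk, hk'⟩ := exists_cyclic hns
    obtain ⟨Y₁, Y₂, h, h1, h2, h3, h4⟩ := exists_factor_of_comp (t := t) (δ := δ) (τ := A.trace) hδ ht htr
    have hu : IsUnit k.det := isUnit_iff_ne_zero.mpr hk
    refine ⟨k * Y₁ * k⁻¹, k * Y₂ * k⁻¹, ?_, ?_, ?_, ?_, ?_⟩
    · have : k * Y₁ * k⁻¹ * (k * Y₂ * k⁻¹) = k * (Y₁ * Y₂) * k⁻¹ := by
        simp only [Matrix.mul_assoc]
        rw [← Matrix.mul_assoc k⁻¹ k, Matrix.nonsing_inv_mul _ hu, Matrix.one_mul]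
      rw [this, h, ← hd, ← hk', Matrix.mul_assoc, Matrix.mul_nonsing_inv _ hu, Matrix.mul_one]
    · rw [Matrix.trace_mul_comm, ← Matrix.mul_assoc, Matrix.nonsing_inv_mul _ hu, Matrix.one_mul, h1]
    · rw [Matrix.det_mul, Matrix.det_mul, Matrix.det_nonsing_inv, h2, Ring.inverse_eq_inv']
      field_simp
    · rw [Matrix.trace_mul_comm, ← Matrix.mul_assoc, Matrix.nonsing_inv_mul _ hu, Matrix.one_mul, h3]
    · rw [Matrix.det_mul, Matrix.det_mul, Matrix.det_nonsing_inv, h4, Ring.inverse_eq_inv']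
      field_simp

end Cfsg.Agent.Lib.ThSp4
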