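import Mathlib
import Cfsg.Agent.Lib.SpBasic
import Cfsg.Agent.Lib.ThSp4.Two

/-!
# The group `Sp₄`: Levi and unipotent elements, Gauss decomposition
-/

set_option autoImplicit false

namespace Cfsg.Agent.Lib.ThSp4

open Matrix
open scoped MatrixGroups
open Cfsg.Agent.Lib.SpBasic

variable {F : Type*} [Field F]

/-- The symplectic group of degree four. -/
abbrev Sp4 (F : Type*) [Field F] := Matrix.symplecticGroup (Fin 2) F

lemma GL_transpose_mul (X : GL (Fin 2) F) : X.1ᵀ * (X⁻¹).1ᵀ = 1 := by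
  rw [← transpose_mul, ← Units.val_mul, inv_mul_cancel]
  simp

lemma GL_transpose_mul' (X : GL (Fin 2) F) : (X⁻¹).1ᵀ * X.1ᵀ = 1 := by
  rw [← transpose_mul, ← Units.val_mul, mul_inv_cancel]
  simp

lemma GL_mul_inv (X : GL (Fin 2) F) : X.1 * (X⁻¹).1 = 1 := by
  rw [← Units.val_mul, mul_inv_cancel]
  simp

lemma GL_inv_mul (X : GL (Fin 2) F) : (X⁻¹).1 * X.1 = 1 := by
  rw [← Units.val_mul, inv_mul_cancel]
  simp

/-- The Levi factor. -/
def Lv : GL (Fin 2) F →* Sp4 F where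
  toFun X := ⟨fromBlocks X.1 0 0 (X⁻¹).1ᵀ, by
    rw [SymplecticGroup.fromBlocks_mem_iff]
    refine ⟨by simp, by simp, ?_⟩
    rw [transpose_zero, zero_mul, sub_zero, GL_transpose_mul]⟩
  map_one' := by
    apply Subtype.ext
    simp [fromBlocks_one]
  map_mul' X Y := by
    apply Subtype.ext
    simp only [Submonoid.coe_mul, fromBlocks_multiply]
    simp only [Matrix.mul_zero, Matrix.zero_mul, add_zero, zero_add, Units.val_mul,
      _root_.mul_inv_rev, transpose_mul]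

lemma Lv_coe (X : GL (Fin 2) F) : (Lv X).1 = fromBlocks X.1 0 0 (X⁻¹).1ᵀ := rfl

/-- The upper unipotent elements. -/
def Up (S : M2 F) (hS : Sᵀ = S) : Sp4 F := ⟨fromBlocks 1 S 0 1, by
  rw [SymplecticGroup.fromBlocks_mem_iff]
  refine ⟨by simp, by simp [hS], by simp⟩⟩

/-- The lower unipotent elements. -/
def Lo (S : M2 F) (hS : Sᵀ = S) : Sp4 F := ⟨fromBlocks 1 0 S 1, by
  rw [SymplecticGroup.fromBlocks_mem_iff]
  refine ⟨by simp [hS], by simp, by simp⟩⟩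

lemma Up_coe (S : M2 F) (hS : Sᵀ = S) : (Up S hS).1 = fromBlocks 1 S 0 1 := rfl

lemma Lo_coe (S : M2 F) (hS : Sᵀ = S) : (Lo S hS).1 = fromBlocks 1 0 S 1 := rfl

lemma Up_congr {S T : M2 F} (hS : Sᵀ = S) (hT : Tᵀ = T) (h : S = T) : Up S hS = Up T hT := by
  subst h; rfl

lemma Lo_congr {S T : M2 F} (hS : Sᵀ = S) (hT : Tᵀ = T) (h : S = T) : Lo S hS = Lo T hT := by
  subst h; rfl

lemma Up_mul (S T : M2 F) (hS : Sᵀ = S) (hT : Tᵀ = T) :
    Up S hS * Up T hT = Up (S + T) (by rw [transpose_add, hS, hT]) := by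
  apply Subtype.ext
  simp [Up_coe, fromBlocks_multiply, add_comm]

lemma Lo_mul (S T : M2 F) (hS : Sᵀ = S) (hT : Tᵀ = T) :
    Lo S hS * Lo T hT = Lo (S + T) (by rw [transpose_add, hS, hT]) := by
  apply Subtype.ext
  simp [Lo_coe, fromBlocks_multiply, add_comm]

lemma neg_sym {S : M2 F} (hS : Sᵀ = S) : (-S)ᵀ = -S := by rw [transpose_neg, hS]

lemma Up_inv (S : M2 F) (hS : Sᵀ = S) : (Up S hS)⁻¹ = Up (-S) (neg_sym hS) := by
  apply inv_eq_of_mul_eq_one_right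
  rw [Up_mul]
  apply Subtype.ext
  simp [Up_coe, fromBlocks_one]

lemma Lo_inv (S : M2 F) (hS : Sᵀ = S) : (Lo S hS)⁻¹ = Lo (-S) (neg_sym hS) := by
  apply inv_eq_of_mul_eq_one_right
  rw [Lo_mul]
  apply Subtype.ext
  simp [Lo_coe, fromBlocks_one]

lemma conj_sym (X : M2 F) {S : M2 F} (hS : Sᵀ = S) : (X * S * Xᵀ)ᵀ = X * S * Xᵀ := by
  simp [transpose_mul, hS, Matrix.mul_assoc]

lemma Lv_mul_Up (X : GL (Fin 2) F) (S : M2 F) (hS : Sᵀ = S) :
    Lv X * Up S hS = Up (X.1 * S * X.1ᵀ) (conj_sym _ hS) * Lv X := by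
  apply Subtype.ext
  simp only [Submonoid.coe_mul, Lv_coe, Up_coe, fromBlocks_multiply]
  simp only [Matrix.mul_zero, Matrix.zero_mul, add_zero, zero_add, Matrix.mul_one, Matrix.one_mul,
    Matrix.mul_assoc, GL_transpose_mul]

lemma Lv_mul_Lo (X : GL (Fin 2) F) (S : M2 F) (hS : Sᵀ = S) :
    Lv X * Lo S hS = Lo ((X⁻¹).1ᵀ * S * ((X⁻¹).1ᵀ)ᵀ) (conj_sym _ hS) * Lv X := by
  apply Subtype.ext
  simp only [Submonoid.coe_mul, Lv_coe, Lo_coe, fromBlocks_multiply]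
  simp only [Matrix.mul_zero, Matrix.zero_mul, add_zero, zero_add, Matrix.mul_one, Matrix.one_mul,
    Matrix.mul_assoc, transpose_transpose, GL_inv_mul]

/-- No nonzero fixed symmetric matrix. -/
def Fpf (A : M2 F) : Prop := ∀ S : M2 F, Sᵀ = S → A * S * Aᵀ = S → S = 0

lemma Fpf_conj {A K L : M2 F} (hA : Fpf A) (h1 : K * L = 1) (h2 : L * K = 1) : Fpf (K * A * L) := by
  intro S hS h
  have h3 : A * (L * S * Lᵀ) * Aᵀ = L * S * Lᵀ := by
    have h4 : L * (K * A * L * S * (K * A * L)ᵀ) * Lᵀ = L * S * Lᵀ := by rw [h]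
    have h5 : L * (K * A * L * S * (K * A * L)ᵀ) * Lᵀ =
        (L * K) * (A * (L * S * Lᵀ) * Aᵀ) * (L * K)ᵀ := by
      simp only [transpose_mul, Matrix.mul_assoc]
    rw [h5, h2] at h4
    simpa using h4
  have h6 := hA _ (conj_sym L hS) h3
  have h7 : K * (L * S * Lᵀ) * Kᵀ = S := by
    have : K * (L * S * Lᵀ) * Kᵀ = (K * L) * S * (K * L)ᵀ := by
      simp only [transpose_mul, Matrix.mul_assoc]
    rw [this, h1]
    simp
  rw [← h7, h6]
  simp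

lemma sym_surj [Finite F] {A : M2 F} (h : Fpf A) {T : M2 F} (hT : Tᵀ = T) :
    ∃ S : M2 F, Sᵀ = S ∧ S - A * S * Aᵀ = T := by
  let f : {S : M2 F // Sᵀ = S} → {S : M2 F // Sᵀ = S} := fun S =>
    ⟨S.1 - A * S.1 * Aᵀ, by rw [transpose_sub, S.2, conj_sym A S.2]⟩
  have hf : Function.Injective f := by
    intro S₁ S₂ h12
    have h1 : S₁.1 - A * S₁.1 * Aᵀ = S₂.1 - A * S₂.1 * Aᵀ := congrArg Subtype.val h12
    have h2 : S₁.1 - S₂.1 = 0 := by
      apply h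
      · rw [transpose_sub, S₁.2, S₂.2]
      · rw [Matrix.mul_sub, Matrix.sub_mul]
        rw [sub_eq_sub_iff_sub_eq_sub] at h1
        exact h1.symm
    exact Subtype.ext (sub_eq_zero.mp h2)
  obtain ⟨S, hS⟩ := (Finite.injective_iff_surjective.mp hf) ⟨T, hT⟩
  exact ⟨S.1, S.2, congrArg Subtype.val hS⟩

lemma isConj_Up_mul_Lv [Finite F] {X : GL (Fin 2) F} (hX : Fpf X.1) {T : M2 F} (hT : Tᵀ = T) :
    IsConj (Up T hT * Lv X) (Lv X) := by
  obtain ⟨S, hS, hST⟩ := sym_surj hX hT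
  apply IsConj.symm
  rw [isConj_iff]
  refine ⟨Up S hS, ?_⟩
  rw [Up_inv, mul_assoc, Lv_mul_Up, ← mul_assoc, Up_mul]
  congr 1
  apply Up_congr
  rw [← hST, Matrix.mul_neg, Matrix.neg_mul, sub_eq_add_neg]

lemma isConj_Lo_mul_Lv [Finite F] {X : GL (Fin 2) F} (hX : Fpf (X⁻¹).1ᵀ) {T : M2 F} (hT : Tᵀ = T) :
    IsConj (Lo T hT * Lv X) (Lv X) := by
  obtain ⟨S, hS, hST⟩ := sym_surj hX hT
  apply IsConj.symm
  rw [isConj_iff]
  refine ⟨Lo S hS, ?_⟩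
  rw [Lo_inv, mul_assoc, Lv_mul_Lo, ← mul_assoc, Lo_mul]
  congr 1
  apply Lo_congr
  rw [← hST, Matrix.mul_neg, Matrix.neg_mul, sub_eq_add_neg]

lemma isConj_Lv_mul_Up [Finite F] {X : GL (Fin 2) F} (hX : Fpf X.1) {T : M2 F} (hT : Tᵀ = T) :
    IsConj (Lv X * Up T hT) (Lv X) := by
  rw [Lv_mul_Up]
  exact isConj_Up_mul_Lv hX _

lemma Fpf_conj₁ {X : GL (Fin 2) F} (hX : Fpf X.1) (k : GL (Fin 2) F) :
    Fpf (k * X * k⁻¹).1 := by
  rw [Units.val_mul, Units.val_mul]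
  exact Fpf_conj hX (GL_mul_inv k) (GL_inv_mul k)

lemma Fpf_conj₂ {X : GL (Fin 2) F} (hX : Fpf (X⁻¹).1ᵀ) (k : GL (Fin 2) F) :
    Fpf ((k * X * k⁻¹)⁻¹).1ᵀ := by
  have h : ((k * X * k⁻¹)⁻¹).1ᵀ = (k⁻¹).1ᵀ * (X⁻¹).1ᵀ * k.1ᵀ := by
    have : (k * X * k⁻¹)⁻¹ = k * X⁻¹ * k⁻¹ := by group
    rw [this, Units.val_mul, Units.val_mul, transpose_mul, transpose_mul, Matrix.mul_assoc]
  rw [h]
  exact Fpf_conj hX (GL_transpose_mul' k) (GL_transpose_mul k)

/-- Blocks of a symplectic matrix. -/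
lemma blocks_rel (g : Sp4 F) :
    (g.1.toBlocks₁₁)ᵀ * g.1.toBlocks₂₁ = (g.1.toBlocks₂₁)ᵀ * g.1.toBlocks₁₁ ∧
    (g.1.toBlocks₁₂)ᵀ * g.1.toBlocks₂₂ = (g.1.toBlocks₂₂)ᵀ * g.1.toBlocks₁₂ ∧
    (g.1.toBlocks₁₁)ᵀ * g.1.toBlocks₂₂ - (g.1.toBlocks₂₁)ᵀ * g.1.toBlocks₁₂ = 1 := by
  have h : fromBlocks g.1.toBlocks₁₁ g.1.toBlocks₁₂ g.1.toBlocks₂₁ g.1.toBlocks₂₂ ∈
      Matrix.symplecticGroup (Fin 2) F := by
    rw [fromBlocks_toBlocks]
    exact g.2
  exact SymplecticGroup.fromBlocks_mem_iff.mp h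

lemma blocks_rel' (g : Sp4 F) :
    g.1.toBlocks₁₁ * (g.1.toBlocks₁₂)ᵀ = g.1.toBlocks₁₂ * (g.1.toBlocks₁₁)ᵀ := by
  have h : fromBlocks (g.1.toBlocks₁₁)ᵀ (g.1.toBlocks₂₁)ᵀ (g.1.toBlocks₁₂)ᵀ (g.1.toBlocks₂₂)ᵀ ∈
      Matrix.symplecticGroup (Fin 2) F := by
    rw [← fromBlocks_transpose, fromBlocks_toBlocks]
    exact SymplecticGroup.transpose_mem g.2
  have := (SymplecticGroup.fromBlocks_mem_iff.mp h).1
  simpa using this

/-- The Gauss decomposition. -/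
lemma exists_LU (g : Sp4 F) (W : GL (Fin 2) F) (hW : g.1.toBlocks₁₁ = W.1) :
    ∃ (S₁ S₂ : M2 F) (h₁ : S₁ᵀ = S₁) (h₂ : S₂ᵀ = S₂), g = Lo S₁ h₁ * Lv W * Up S₂ h₂ := by
  obtain ⟨h1, -, h3⟩ := blocks_rel g
  have h4 := blocks_rel' g
  rw [hW] at h1 h3 h4
  set B := g.1.toBlocks₁₂ with hB
  set C := g.1.toBlocks₂₁ with hC
  set D := g.1.toBlocks₂₂ with hD
  set A := W.1 with hA
  set Wi := (W⁻¹).1 with hWi
  have e1 : A * Wi = 1 := GL_mul_inv W
  have e2 : Wi * A = 1 := GL_inv_mul W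
  have e3 : Aᵀ * Wiᵀ = 1 := GL_transpose_mul W
  have e4 : Wiᵀ * Aᵀ = 1 := GL_transpose_mul' W
  have s1 : (C * Wi)ᵀ = C * Wi := by
    rw [transpose_mul]
    calc Wiᵀ * Cᵀ = Wiᵀ * (Cᵀ * (A * Wi)) := by rw [e1, Matrix.mul_one]
      _ = Wiᵀ * (Cᵀ * A) * Wi := by simp only [Matrix.mul_assoc]
      _ = Wiᵀ * (Aᵀ * C) * Wi := by rw [h1]
      _ = (Wiᵀ * Aᵀ) * C * Wi := by simp only [Matrix.mul_assoc]
      _ = C * Wi := by rw [e4, Matrix.one_mul]
  have s2 : (Wi * B)ᵀ = Wi * B := by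
    rw [transpose_mul]
    calc Bᵀ * Wiᵀ = (Wi * A) * Bᵀ * Wiᵀ := by rw [e2, Matrix.one_mul]
      _ = Wi * (A * Bᵀ) * Wiᵀ := by simp only [Matrix.mul_assoc]
      _ = Wi * (B * Aᵀ) * Wiᵀ := by rw [h4]
      _ = Wi * B * (Aᵀ * Wiᵀ) := by simp only [Matrix.mul_assoc]
      _ = Wi * B := by rw [e3, Matrix.mul_one]
  refine ⟨C * Wi, Wi * B, s1, s2, ?_⟩
  apply Subtype.ext
  have h5 : g.1 = fromBlocks A B C D := by
    rw [← hW, hB, hC, hD, fromBlocks_toBlocks]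
  have e5 : D = C * Wi * B + Wiᵀ := by
    have h6 : Aᵀ * D = 1 + Cᵀ * B := by rw [← h3]; abel
    calc D = (Wiᵀ * Aᵀ) * D := by rw [e4, Matrix.one_mul]
      _ = Wiᵀ * (Aᵀ * D) := by rw [Matrix.mul_assoc]
      _ = Wiᵀ * (1 + Cᵀ * B) := by rw [h6]
      _ = Wiᵀ * Cᵀ * B + Wiᵀ := by
        rw [Matrix.mul_add, Matrix.mul_one, add_comm, Matrix.mul_assoc]
      _ = (C * Wi)ᵀ * B + Wiᵀ := by rw [transpose_mul]
      _ = C * Wi * B + Wiᵀ := by rw [s1]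
  rw [h5]
  simp only [Submonoid.coe_mul, Lv_coe, Up_coe, Lo_coe, fromBlocks_multiply]
  simp only [Matrix.mul_zero, Matrix.zero_mul, add_zero, zero_add, Matrix.mul_one, Matrix.one_mul]
  have e6 : C * Wi * A = C := by rw [Matrix.mul_assoc, e2, Matrix.mul_one]
  have e7 : A * (Wi * B) = B := by rw [← Matrix.mul_assoc, e1, Matrix.one_mul]
  rw [e6, e7, e5, ← hA, Matrix.mul_assoc]

/-- Non-central elements can be conjugated out of the parabolic. -/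
lemma exists_conj_lowerLeft_ne_zero (g : Sp4 F) (hg : g ∉ Subgroup.center (Sp4 F)) :
    ∃ k : Sp4 F, (k * g * k⁻¹).1.toBlocks₂₁ ≠ 0 := by
  by_contra H
  push Not at H
  apply hg
  have hcol : ∀ (h : Sp4 F), h.1.toBlocks₂₁ = 0 → ∀ j, (h • (eL 0 : Fin 2 ⊕ Fin 2 → F)) (Sum.inr j) = 0 := by
    intro h hh j
    have h1 : h.1.toBlocks₂₁ j 0 = 0 := by rw [hh]; rfl
    have h2 : (h • (eL 0 : Fin 2 ⊕ Fin 2 → F)) (Sum.inr j) = h.1.toBlocks₂₁ j 0 := by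
      rw [Sp_smul_def]
      simp [Matrix.toBlocks₂₁, eL]
    rw [h2, h1]
  have he0 : (eL 0 : Fin 2 ⊕ Fin 2 → F) ≠ 0 := by
    intro h
    have := congrFun h (Sum.inl 0)
    simp [eL] at this
  have key : ∀ v : Fin 2 ⊕ Fin 2 → F, v ≠ 0 → ∃ a : F, g • v = a • v := by
    intro v hv
    obtain ⟨k, hk⟩ := exists_smul_eq_of_ne_zero (x := (eL 0 : Fin 2 ⊕ Fin 2 → F)) (y := v) he0 hv
    set w : Fin 2 ⊕ Fin 2 → F := k⁻¹ • g • v with hw
    have h1 : ∀ j, w (Sum.inr j) = 0 := by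
      intro j
      have h2 := H k⁻¹
      rw [inv_inv] at h2
      have h3 := hcol _ h2 j
      rw [mul_smul, mul_smul, hk] at h3
      exact h3
    set τ : Sp4 F := T (eR 1) 1 with hτ
    have hτ0 : τ⁻¹ • (eL 0 : Fin 2 ⊕ Fin 2 → F) = eL 0 := by
      rw [hτ, T_inv, T_smul, ω_eL_right]
      simp [eR]
    have h4 : (τ • w) (Sum.inr 1) = 0 := by
      have h2 := H (τ * k⁻¹)
      have h3 := hcol _ h2 1
      have h5 : (τ * k⁻¹)⁻¹ = k * τ⁻¹ := by group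
      rw [h5] at h3
      have h6 : (τ * k⁻¹ * g * (k * τ⁻¹)) • (eL 0 : Fin 2 ⊕ Fin 2 → F) = τ • w := by
        rw [mul_smul, mul_smul, mul_smul, mul_smul, hτ0, hk]
      rw [h6] at h3
      exact h3
    have h7 : w (Sum.inl 1) = 0 := by
      rw [hτ, T_smul] at h4
      have h8 : ω (eR 1) w = w (Sum.inl 1) := by
        rw [ω_comm, ω_eR_right, neg_neg]
      rw [h8] at h4
      simpa [h1 1, eR] using h4
    have h9 : w = w (Sum.inl 0) • (eL 0 : Fin 2 ⊕ Fin 2 → F) := by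
      ext i
      rcases i with i | i
      · fin_cases i
        · simp [eL]
        · simpa [eL] using h7
      · simpa [eL] using h1 i
    refine ⟨w (Sum.inl 0), ?_⟩
    have h10 : g • v = k • w := by rw [hw, smul_inv_smul]
    calc g • v = k • w := h10
      _ = k • (w (Sum.inl 0) • (eL 0 : Fin 2 ⊕ Fin 2 → F)) := congrArg (k • ·) h9
      _ = w (Sum.inl 0) • (k • (eL 0 : Fin 2 ⊕ Fin 2 → F)) := by
        rw [Sp_smul_def, Matrix.mulVec_smul, ← Sp_smul_def]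
      _ = w (Sum.inl 0) • v := by rw [hk]
  have key2 : ∃ a : F, Matrix.mulVecLin g.1 = a • 1 := by
    apply LinearMap.exists_eq_smul_id_of_forall_notLinearIndependent
    intro v hli
    rw [LinearIndependent.pair_iff] at hli
    by_cases hv : v = 0
    · have := hli 1 0 (by simp [hv])
      exact one_ne_zero this.1
    · obtain ⟨a, ha⟩ := key v hv
      have h1 : Matrix.mulVecLin g.1 v = a • v := by
        rw [← ha]; rfl
      have := hli a (-1) (by rw [h1]; simp)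
      have h2 := this.2
      simp at h2
  obtain ⟨a, ha⟩ := key2
  have hsm : ∀ x : Fin 2 ⊕ Fin 2 → F, g • x = a • x := by
    intro x
    have := LinearMap.congr_fun ha x
    rw [Sp_smul_def]
    simpa using this
  rw [Subgroup.mem_center_iff]
  intro h
  apply Sp_ext
  intro x
  rw [mul_smul, mul_smul, hsm, hsm, Sp_smul_def h, Sp_smul_def h, Matrix.mulVec_smul]

/-- Conjugation by upper unipotents. -/
lemma Up_conj_blocks (g : Sp4 F) (S : M2 F) (hS : Sᵀ = S) :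
    (Up S hS * g * (Up S hS)⁻¹).1.toBlocks₁₁ = g.1.toBlocks₁₁ + S * g.1.toBlocks₂₁ := by
  rw [Up_inv]
  simp only [Submonoid.coe_mul, Up_coe]
  conv_lhs => rw [← fromBlocks_toBlocks g.1, fromBlocks_multiply, fromBlocks_multiply]
  simp

/-- Conjugation by the Levi. -/
lemma Lv_conj_blocks₁₁ (g : Sp4 F) (K : GL (Fin 2) F) :
    (Lv K * g * (Lv K)⁻¹).1.toBlocks₁₁ = K.1 * g.1.toBlocks₁₁ * (K⁻¹).1 := by
  rw [← map_inv]
  simp only [Submonoid.coe_mul, Lv_coe]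
  conv_lhs => rw [← fromBlocks_toBlocks g.1, fromBlocks_multiply, fromBlocks_multiply]
  simp

lemma Lv_conj_blocks₂₁ (g : Sp4 F) (K : GL (Fin 2) F) :
    (Lv K * g * (Lv K)⁻¹).1.toBlocks₂₁ = (K⁻¹).1ᵀ * g.1.toBlocks₂₁ * (K⁻¹).1 := by
  rw [← map_inv]
  simp only [Submonoid.coe_mul, Lv_coe]
  conv_lhs => rw [← fromBlocks_toBlocks g.1, fromBlocks_multiply, fromBlocks_multiply]
  simp

/-- A good second column for a given first column. -/
lemma good_of_col {δ : F} (hδ : δ ≠ 0) (a0 a1 : F) (ha : a0 ≠ 0 ∨ a1 ≠ 0) :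
    ∃ b0 b1 : F, Good δ !![a0, b0; a1, b1] := by
  by_cases h1 : a1 = 0
  · have h0 : a0 ≠ 0 := by
      rcases ha with h | h
      · exact h
      · exact absurd h1 h
    by_cases h2 : a0 = δ
    · refine ⟨0, δ, Or.inl ?_⟩
      ext i j
      fin_cases i <;> fin_cases j <;> simp [h1, h2]
    · refine ⟨1, δ ^ 2 / a0, Or.inr ⟨?_, ?_, ?_⟩⟩
      · rw [Matrix.det_fin_two]
        simp [h1]
        field_simp
      · rw [Matrix.trace_fin_two]
        simp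
        intro h
        apply h2
        have h3 : (a0 - δ) ^ 2 = 0 := by
          field_simp at h
          linear_combination h
        exact sub_eq_zero.mp (pow_eq_zero_iff (two_ne_zero)|>.mp h3)
      · rintro ⟨s, hs⟩
        have := congrFun (congrFun hs 0) 1
        simp at this
  · refine ⟨(a0 * (2 * δ + 1 - a0) - δ ^ 2) / a1, 2 * δ + 1 - a0, Or.inr ⟨?_, ?_, ?_⟩⟩
    · rw [Matrix.det_fin_two]
      simp
      field_simp
      ring
    · rw [Matrix.trace_fin_two]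
      simp
    · rintro ⟨s, hs⟩
      have := congrFun (congrFun hs 1) 0
      simp at this
      exact h1 this

/-- Symmetric matrices with prescribed value on a non-zero vector. -/
lemma exists_sym_mulVec (c0 c1 z0 z1 : F) (hc : c0 ≠ 0 ∨ c1 ≠ 0) :
    ∃ x y w : F, x * c0 + y * c1 = z0 ∧ y * c0 + w * c1 = z1 := by
  by_cases h0 : c0 = 0
  · have h1 : c1 ≠ 0 := by
      rcases hc with h | h
      · exact absurd h0 h
      · exact h
    refine ⟨0, z0 / c1, z1 / c1, ?_, ?_⟩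
    · field_simp
      simp
    · rw [h0]
      field_simp
      simp
  · refine ⟨(z0 - z1 / c0 * c1) / c0, z1 / c0, 0, ?_, ?_⟩
    · field_simp
      ring
    · field_simp
      simp

/-- The case where the lower left block has zero first column. -/
lemma exists_good_of_col_zero {δ : F} (hδ : δ ≠ 0) (g : Sp4 F)
    (h0 : g.1.toBlocks₂₁ 0 0 = 0) (h1 : g.1.toBlocks₂₁ 1 0 = 0) (hC : g.1.toBlocks₂₁ ≠ 0) :
    ∃ (S : M2 F) (hS : Sᵀ = S), Good δ (g.1.toBlocks₁₁ + S * g.1.toBlocks₂₁) := by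
  obtain ⟨-, -, h3⟩ := blocks_rel g
  set A := g.1.toBlocks₁₁ with hA
  set C := g.1.toBlocks₂₁ with hCd
  have hc : C 0 1 ≠ 0 ∨ C 1 1 ≠ 0 := by
    by_contra hc
    push Not at hc
    apply hC
    ext i j
    fin_cases i <;> fin_cases j <;> simp [h0, h1, hc.1, hc.2]
  have ha : A 0 0 ≠ 0 ∨ A 1 0 ≠ 0 := by
    by_contra ha
    push Not at ha
    have := congrFun (congrFun h3 0) 0
    simp [Matrix.mul_apply, Fin.sum_univ_two, ha.1, ha.2, h0, h1] at this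
  obtain ⟨b0, b1, hb⟩ := good_of_col hδ _ _ ha
  obtain ⟨x, y, w, e1, e2⟩ := exists_sym_mulVec (C 0 1) (C 1 1) (b0 - A 0 1) (b1 - A 1 1) hc
  refine ⟨!![x, y; y, w], ?_, ?_⟩
  · ext i j
    fin_cases i <;> fin_cases j <;> simp
  · convert hb using 1
    ext i j
    fin_cases i <;> fin_cases j <;>
      simp [Matrix.mul_apply, Fin.sum_univ_two, h0, h1, Matrix.vecMul, dotProduct]
    · linear_combination e1
    · linear_combination e2

end Cfsg.Agent.Lib.ThSp4
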