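import Mathlib
import Cfsg.Agent.Lib.ThSp4.Group

/-!
# Every non-central element of `Sp₄` is a product of two conjugates of a semisimple element
-/

set_option autoImplicit false

namespace Cfsg.Agent.Lib.ThSp4

open Matrix
open scoped MatrixGroups
open Cfsg.Agent.Lib.SpBasic

variable {F : Type*} [Field F]

/-- A quadratic function avoids two prescribed opposite values. -/
lemma exists_avoid [Fintype F] (hq : 5 ≤ Fintype.card F ∨ ((2 : F) = 0 ∧ 3 ≤ Fintype.card F))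
    (α σ β v : F) (h : α ≠ 0 ∨ σ ≠ 0) :
    ∃ y : F, α * y ^ 2 + σ * y + β ≠ v ∧ α * y ^ 2 + σ * y + β ≠ -v := by
  classical
  let P : F → Polynomial F := fun u =>
    Polynomial.C α * Polynomial.X ^ 2 + Polynomial.C σ * Polynomial.X + Polynomial.C (β - u)
  have hP0 : ∀ u, P u ≠ 0 := by
    intro u hu
    have h2 : (P u).coeff 2 = α := by
      simp [P, Polynomial.coeff_X, Polynomial.coeff_C]
    have h1 : (P u).coeff 1 = σ := by
      simp [P, Polynomial.coeff_X, Polynomial.coeff_C]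
    rw [hu] at h1 h2
    simp at h1 h2
    rcases h with h | h
    · exact h h2.symm
    · exact h h1.symm
  have hPd : ∀ u, (P u).natDegree ≤ 2 := by
    intro u
    simp only [P]
    compute_degree
  have hPe : ∀ u y, (P u).eval y = α * y ^ 2 + σ * y + β - u := by
    intro u y
    simp [P]
    ring
  have hmem : ∀ u y, α * y ^ 2 + σ * y + β = u → y ∈ (P u).roots.toFinset := by
    intro u y hy
    rw [Multiset.mem_toFinset, Polynomial.mem_roots (hP0 u), Polynomial.IsRoot.def, hPe, hy, sub_self]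
  have hcard : ∀ u, (P u).roots.toFinset.card ≤ 2 := fun u =>
    (Multiset.toFinset_card_le _).trans ((Polynomial.card_roots' _).trans (hPd u))
  by_contra hc
  push Not at hc
  rcases hq with hq | ⟨h2, hq⟩
  · have hsub : (Finset.univ : Finset F) ⊆ (P v).roots.toFinset ∪ (P (-v)).roots.toFinset := by
      intro y _
      rw [Finset.mem_union]
      by_cases hy : α * y ^ 2 + σ * y + β = v
      · exact Or.inl (hmem _ _ hy)
      · exact Or.inr (hmem _ _ (hc y hy))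
    have h1 := Finset.card_le_card hsub
    have h3 := Finset.card_union_le (P v).roots.toFinset (P (-v)).roots.toFinset
    have h4 := hcard v
    have h5 := hcard (-v)
    rw [Finset.card_univ] at h1
    omega
  · have hv : -v = v := by
      rw [neg_eq_iff_add_eq_zero, ← two_mul, h2, zero_mul]
    have hsub : (Finset.univ : Finset F) ⊆ (P v).roots.toFinset := by
      intro y _
      by_cases hy : α * y ^ 2 + σ * y + β = v
      · exact hmem _ _ hy
      · have := hc y hy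
        rw [hv] at this
        exact hmem _ _ this
    have h1 := Finset.card_le_card hsub
    have h4 := hcard v
    rw [Finset.card_univ] at h1
    omega

lemma good_of_trace {δ : F} {A : M2 F} (hd : A.det = δ ^ 2) (h1 : A.trace ≠ 2 * δ)
    (h2 : A.trace ≠ -(2 * δ)) : Good δ A := by
  refine Or.inr ⟨hd, h1, ?_⟩
  rintro ⟨s, rfl⟩
  have hd' : s ^ 2 = δ ^ 2 := by
    simpa [Matrix.det_fin_two] using hd
  have htr : (s • (1 : M2 F)).trace = 2 * s := by
    simp [Matrix.trace_fin_two]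
    ring
  rw [htr] at h1 h2
  have : (s - δ) * (s + δ) = 0 := by linear_combination hd'
  rcases mul_eq_zero.mp this with h | h
  · exact h1 (by rw [sub_eq_zero.mp h])
  · apply h2
    have : s = -δ := eq_neg_of_add_eq_zero_left h
    rw [this]
    ring

lemma trace_sym_mul (x y z : F) (C : M2 F) :
    (!![x, y; y, z] * C).trace = x * C 0 0 + y * (C 0 1 + C 1 0) + z * C 1 1 := by
  simp [Matrix.trace_fin_two, Matrix.mul_apply, Fin.sum_univ_two, Matrix.vecMul, dotProduct]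
  ring

lemma det_sym_mul (x y z : F) (C : M2 F) :
    (!![x, y; y, z] * C).det = (x * z - y ^ 2) * C.det := by
  rw [Matrix.det_mul, Matrix.det_fin_two_of]
  ring

lemma sym_mat (x y z : F) : (!![x, y; y, z])ᵀ = !![x, y; y, z] := by
  ext i j
  fin_cases i <;> fin_cases j <;> simp

/-- The case of large fields. -/
lemma exists_sym_good_big [Fintype F] (hq : 5 ≤ Fintype.card F ∨ ((2 : F) = 0 ∧ 3 ≤ Fintype.card F))
    {δ : F} (hδ : δ ≠ 0) (C : M2 F) (hC : C.det ≠ 0) :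
    ∃ S : M2 F, Sᵀ = S ∧ Good δ (S * C) := by
  set d := δ ^ 2 / C.det with hd
  have hdC : d * C.det = δ ^ 2 := by
    rw [hd]
    field_simp
  by_cases h1 : C 1 1 ≠ 0 ∨ C 0 1 + C 1 0 ≠ 0
  · obtain ⟨y, hy1, hy2⟩ :=
      exists_avoid hq (C 1 1) (C 0 1 + C 1 0) (C 0 0 + d * C 1 1) (2 * δ) h1
    refine ⟨!![1, y; y, d + y ^ 2], sym_mat _ _ _, good_of_trace ?_ ?_ ?_⟩
    · rw [det_sym_mul, ← hdC]
      ring
    · rw [trace_sym_mul]
      intro h
      apply hy1
      linear_combination h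
    · rw [trace_sym_mul]
      intro h
      apply hy2
      linear_combination h
  · push Not at h1
    by_cases h2 : C 0 0 ≠ 0
    · obtain ⟨y, hy1, hy2⟩ :=
        exists_avoid hq (C 0 0) (C 0 1 + C 1 0) (d * C 0 0 + C 1 1) (2 * δ) (Or.inl h2)
      refine ⟨!![d + y ^ 2, y; y, 1], sym_mat _ _ _, good_of_trace ?_ ?_ ?_⟩
      · rw [det_sym_mul, ← hdC]
        ring
      · rw [trace_sym_mul]
        intro h
        apply hy1
        linear_combination h
      · rw [trace_sym_mul]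
        intro h
        apply hy2
        linear_combination h
    · push Not at h2
      have h3 : C 1 0 = - C 0 1 := by linear_combination h1.2
      have hdet : C.det = (C 0 1) ^ 2 := by
        rw [Matrix.det_fin_two, h2, h1.1, h3]
        ring
      have hc : C 0 1 ≠ 0 := by
        intro h
        apply hC
        rw [hdet, h]
        ring
      by_cases h4 : (2 : F) = 0
      · refine ⟨!![0, δ / C 0 1; δ / C 0 1, 0], sym_mat _ _ _, Or.inl ?_⟩
        ext i j
        fin_cases i <;> fin_cases j <;>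
          simp [Matrix.mul_apply, Fin.sum_univ_two, h2, h1.1, h3, Matrix.vecMul, dotProduct]
        · field_simp
          linear_combination -h4
        · field_simp
      · refine ⟨!![1, 0; 0, d], sym_mat _ _ _, Or.inr ⟨?_, ?_, ?_⟩⟩
        · rw [det_sym_mul, ← hdC]
          ring
        · rw [trace_sym_mul, h2, h1.1, h1.2]
          simp only [mul_zero, add_zero, zero_add]
          exact (mul_ne_zero h4 hδ).symm
        · rintro ⟨s, hs⟩
          have := congrFun (congrFun hs 0) 1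
          simp [Matrix.mul_apply, Fin.sum_univ_two] at this
          exact hc this

lemma zmod3_good : ∀ c00 c01 c10 c11 : ZMod 3, c00 * c11 - c01 * c10 ≠ 0 → ∃ x y z : ZMod 3,
    (x * z - y ^ 2) * (c00 * c11 - c01 * c10) = 1 ∧
    ((x * c00 + y * c10 = -1 ∧ x * c01 + y * c11 = 0 ∧ y * c00 + z * c10 = 0 ∧ y * c01 + z * c11 = -1) ∨
     (x * c00 + y * (c01 + c10) + z * c11 ≠ 1 ∧
       ¬ (x * c01 + y * c11 = 0 ∧ y * c00 + z * c10 = 0 ∧ x * c00 + y * c10 = y * c01 + z * c11))) := by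
  decide +kernel

/-- The case of the field with three elements. -/
lemma exists_sym_good_three [Fintype F] (hq : Fintype.card F = 3) {δ : F} (hδ0 : δ ≠ 0) (hδ1 : δ ≠ 1)
    (C : M2 F) (hC : C.det ≠ 0) : ∃ S : M2 F, Sᵀ = S ∧ Good δ (S * C) := by
  obtain ⟨e⟩ : Nonempty (ZMod 3 ≃+* F) := ⟨ZMod.ringEquivOfPrime F Nat.prime_three hq⟩
  have hδ : δ = -1 := by
    have h0 : ∀ d : ZMod 3, d ≠ 0 → d ≠ 1 → d = -1 := by decide
    have h := h0 (e.symm δ)
      (fun h => hδ0 (by simpa using congrArg e h)) (fun h => hδ1 (by simpa using congrArg e h))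
    simpa using congrArg e h
  have h30 : (3 : F) = 0 := by
    have := Nat.cast_card_eq_zero F
    rw [hq] at this
    exact_mod_cast this
  obtain ⟨x, y, z, h1, h2⟩ := zmod3_good (e.symm (C 0 0)) (e.symm (C 0 1)) (e.symm (C 1 0)) (e.symm (C 1 1))
    (by
      intro h
      apply hC
      rw [Matrix.det_fin_two]
      simpa using congrArg e h)
  have hdet : (e x * e z - e y ^ 2) * C.det = 1 := by
    rw [Matrix.det_fin_two]
    simpa using congrArg e h1
  refine ⟨!![e x, e y; e y, e z], sym_mat _ _ _, ?_⟩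
  rcases h2 with ⟨e1, e2, e3, e4⟩ | ⟨e1, e2⟩
  · left
    have e1' : e x * C 0 0 + e y * C 1 0 = -1 := by simpa using congrArg e e1
    have e2' : e x * C 0 1 + e y * C 1 1 = 0 := by simpa using congrArg e e2
    have e3' : e y * C 0 0 + e z * C 1 0 = 0 := by simpa using congrArg e e3
    have e4' : e y * C 0 1 + e z * C 1 1 = -1 := by simpa using congrArg e e4
    rw [hδ]
    ext i j
    fin_cases i <;> fin_cases j <;>
      simp [Matrix.mul_apply, Fin.sum_univ_two, Matrix.vecMul, dotProduct, e1', e2', e3', e4']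
  · right
    refine ⟨?_, ?_, ?_⟩
    · rw [det_sym_mul, hdet, hδ]
      ring
    · rw [trace_sym_mul, hδ]
      intro h
      apply e1
      apply e.injective
      simp only [map_add, map_mul, map_one, RingEquiv.apply_symm_apply]
      linear_combination h - h30
    · rintro ⟨s, hs⟩
      apply e2
      have h00 := congrFun (congrFun hs 0) 0
      have h01 := congrFun (congrFun hs 0) 1
      have h10 := congrFun (congrFun hs 1) 0
      have h11 := congrFun (congrFun hs 1) 1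
      simp [Matrix.mul_apply, Fin.sum_univ_two] at h00 h01 h10 h11
      refine ⟨e.injective ?_, e.injective ?_, e.injective ?_⟩
      · simpa using h01
      · simpa using h10
      · simp only [map_add, map_mul, RingEquiv.apply_symm_apply]
        rw [h00, h11]

/-- Symmetric matrices making a given invertible matrix good. -/
lemma exists_sym_good [Fintype F] (h3 : 3 ≤ Fintype.card F) {δ : F} (hδ0 : δ ≠ 0) (hδ1 : δ ≠ 1)
    (C : M2 F) (hC : C.det ≠ 0) : ∃ S : M2 F, Sᵀ = S ∧ Good δ (S * C) := by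
  rcases (by omega : Fintype.card F = 3 ∨ Fintype.card F = 4 ∨ 5 ≤ Fintype.card F) with h | h | h
  · exact exists_sym_good_three h hδ0 hδ1 C hC
  · have h2 : (2 : F) = 0 := by
      have h4 := Nat.cast_card_eq_zero F
      rw [h] at h4
      have h5 : (2 : F) * 2 = 0 := by
        have : (2 : F) * 2 = ((4 : ℕ) : F) := by norm_num
        rw [this, h4]
      exact mul_self_eq_zero.mp h5
    exact exists_sym_good_big (Or.inr ⟨h2, h3⟩) hδ0 C hC
  · exact exists_sym_good_big (Or.inl h) hδ0 C hC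

/-- Up to conjugacy, an element outside the parabolic has a good upper left block. -/
lemma exists_conj_good [Fintype F] (h3 : 3 ≤ Fintype.card F) {δ : F} (hδ0 : δ ≠ 0) (hδ1 : δ ≠ 1)
    (g : Sp4 F) (hC : g.1.toBlocks₂₁ ≠ 0) :
    ∃ h : Sp4 F, Good δ (h * g * h⁻¹).1.toBlocks₁₁ := by
  by_cases hdet : g.1.toBlocks₂₁.det = 0
  · obtain ⟨v, hv, hCv⟩ := Matrix.exists_mulVec_eq_zero_iff.mpr hdet
    obtain ⟨L, hL0, hL1⟩ : ∃ L : GL (Fin 2) F, L.1 0 0 = v 0 ∧ L.1 1 0 = v 1 := by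
      by_cases h0 : v 0 = 0
      · have h1 : v 1 ≠ 0 := by
          intro h1
          apply hv
          ext i
          fin_cases i
          · exact h0
          · exact h1
        refine ⟨GeneralLinearGroup.mkOfDetNeZero !![v 0, 1; v 1, 0] ?_, rfl, rfl⟩
        rw [Matrix.det_fin_two_of, h0]
        simpa using h1
      · refine ⟨GeneralLinearGroup.mkOfDetNeZero !![v 0, 0; v 1, 1] ?_, rfl, rfl⟩
        rw [Matrix.det_fin_two_of]
        simpa using h0
    set C := g.1.toBlocks₂₁ with hCd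
    set g' : Sp4 F := Lv L⁻¹ * g * (Lv L⁻¹)⁻¹ with hg'
    have h1 : g'.1.toBlocks₂₁ = L.1ᵀ * C * L.1 := by
      rw [hg', Lv_conj_blocks₂₁, inv_inv]
    have hCL : ∀ k, (C * L.1) k 0 = 0 := by
      intro k
      have := congrFun hCv k
      simp only [Matrix.mulVec, dotProduct, Fin.sum_univ_two, Pi.zero_apply] at this
      rw [Matrix.mul_apply, Fin.sum_univ_two, hL0, hL1]
      exact this
    have h00 : ∀ i, g'.1.toBlocks₂₁ i 0 = 0 := by
      intro i
      rw [h1, Matrix.mul_assoc, Matrix.mul_apply, Fin.sum_univ_two, hCL, hCL]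
      simp
    have hne : g'.1.toBlocks₂₁ ≠ 0 := by
      intro h0
      rw [h1] at h0
      apply hC
      have e1 := GL_transpose_mul' L
      have e2 := GL_mul_inv L
      calc C = ((L⁻¹).1ᵀ * L.1ᵀ) * C * (L.1 * (L⁻¹).1) := by
            rw [e1, e2, Matrix.one_mul, Matrix.mul_one]
        _ = (L⁻¹).1ᵀ * (L.1ᵀ * C * L.1) * (L⁻¹).1 := by simp only [Matrix.mul_assoc]
        _ = 0 := by rw [h0]; simp
    obtain ⟨S, hS, hgood⟩ := exists_good_of_col_zero hδ0 g' (h00 0) (h00 1) hne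
    refine ⟨Up S hS * Lv L⁻¹, ?_⟩
    have : Up S hS * Lv L⁻¹ * g * (Up S hS * Lv L⁻¹)⁻¹ = Up S hS * g' * (Up S hS)⁻¹ := by
      rw [hg']
      group
    rw [this, Up_conj_blocks]
    exact hgood
  · obtain ⟨S', hS', hgood⟩ := exists_sym_good h3 hδ0 hδ1 _ hdet
    obtain ⟨h1, -, -⟩ := blocks_rel g
    set A := g.1.toBlocks₁₁ with hA
    set C := g.1.toBlocks₂₁ with hCd
    have hu : IsUnit C.det := isUnit_iff_ne_zero.mpr hdet
    have e1 : C * C⁻¹ = 1 := Matrix.mul_nonsing_inv _ hu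
    have e2 : C⁻¹ * C = 1 := Matrix.nonsing_inv_mul _ hu
    have e3 : (C⁻¹)ᵀ * Cᵀ = 1 := by rw [← transpose_mul, e1, transpose_one]
    have s1 : (A * C⁻¹)ᵀ = A * C⁻¹ := by
      rw [transpose_mul]
      calc (C⁻¹)ᵀ * Aᵀ = (C⁻¹)ᵀ * (Aᵀ * (C * C⁻¹)) := by rw [e1, Matrix.mul_one]
        _ = (C⁻¹)ᵀ * (Aᵀ * C) * C⁻¹ := by simp only [Matrix.mul_assoc]
        _ = (C⁻¹)ᵀ * (Cᵀ * A) * C⁻¹ := by rw [h1]
        _ = ((C⁻¹)ᵀ * Cᵀ) * A * C⁻¹ := by simp only [Matrix.mul_assoc]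
        _ = A * C⁻¹ := by rw [e3, Matrix.one_mul]
    have hS : (S' - A * C⁻¹)ᵀ = S' - A * C⁻¹ := by
      rw [transpose_sub, hS', s1]
    refine ⟨Up _ hS, ?_⟩
    rw [Up_conj_blocks]
    convert hgood using 1
    rw [Matrix.sub_mul, Matrix.mul_assoc, e2, Matrix.mul_one, ← hA]
    abel

/-- The algebra behind the absence of fixed symmetric matrices, first form. -/
lemma fpf_alg₁ {t δ : F} (hδ1 : δ ≠ 1) (ht : t ≠ 0) (hP1 : (1 : F) ^ 2 - t * 1 + δ ≠ 0)
    (hP2 : (-1 : F) ^ 2 - t * (-1) + δ ≠ 0) (a b c : F)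
    (e1 : a = δ ^ 2 * c) (e2 : b = -δ * b - δ * t * c) (e3 : c = a + 2 * t * b + t ^ 2 * c) :
    a = 0 ∧ b = 0 ∧ c = 0 := by
  have hδ1' : 1 - δ ≠ 0 := fun h => hδ1 (sub_eq_zero.mp h).symm
  have hc : c = 0 := by
    have h : c * ((1 - δ) * ((1 : F) ^ 2 - t * 1 + δ) * ((-1 : F) ^ 2 - t * (-1) + δ)) = 0 := by
      linear_combination (1 + δ) * (e3 + e1) + 2 * t * e2
    rcases mul_eq_zero.mp h with h | h
    · exact h
    · exact absurd h (mul_ne_zero (mul_ne_zero hδ1' hP1) hP2)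
  rw [hc] at e1 e2 e3
  have ha : a = 0 := by rw [e1]; ring
  refine ⟨ha, ?_, hc⟩
  by_contra hb
  have h1 : 1 + δ = 0 := by
    have : (1 + δ) * b = 0 := by linear_combination e2
    exact (mul_eq_zero.mp this).resolve_right hb
  have h2 : (2 : F) = 0 := by
    have : 2 * t * b = 0 := by rw [ha] at e3; linear_combination -e3
    have := (mul_eq_zero.mp this).resolve_right hb
    exact (mul_eq_zero.mp this).resolve_right ht
  apply hδ1
  linear_combination h1 - h2

/-- The algebra behind the absence of fixed symmetric matrices, second form. -/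
lemma fpf_alg₂ {t δ : F} (hδ0 : δ ≠ 0) (hδ1 : δ ≠ 1) (ht : t ≠ 0) (hP1 : (1 : F) ^ 2 - t * 1 + δ ≠ 0)
    (hP2 : (-1 : F) ^ 2 - t * (-1) + δ ≠ 0) (a b c : F)
    (e1 : a = c) (e2 : b = -δ * b + t * c) (e3 : c = δ ^ 2 * a - 2 * δ * t * b + t ^ 2 * c) :
    a = 0 ∧ b = 0 ∧ c = 0 := by
  have hδ1' : 1 - δ ≠ 0 := fun h => hδ1 (sub_eq_zero.mp h).symm
  have hc : c = 0 := by
    have h : c * ((1 - δ) * ((1 : F) ^ 2 - t * 1 + δ) * ((-1 : F) ^ 2 - t * (-1) + δ)) = 0 := by
      linear_combination (1 + δ) * (e3 + δ ^ 2 * e1) - 2 * δ * t * e2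
    rcases mul_eq_zero.mp h with h | h
    · exact h
    · exact absurd h (mul_ne_zero (mul_ne_zero hδ1' hP1) hP2)
  rw [hc] at e1 e2 e3
  refine ⟨e1, ?_, hc⟩
  by_contra hb
  have h1 : 1 + δ = 0 := by
    have : (1 + δ) * b = 0 := by linear_combination e2
    exact (mul_eq_zero.mp this).resolve_right hb
  have h2 : (2 : F) = 0 := by
    have : 2 * δ * t * b = 0 := by rw [e1] at e3; linear_combination e3
    have := (mul_eq_zero.mp this).resolve_right hb
    have := (mul_eq_zero.mp this).resolve_right ht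
    exact (mul_eq_zero.mp this).resolve_right hδ0
  apply hδ1
  linear_combination h1 - h2

lemma comp_fpf₁ {t δ : F} (hδ1 : δ ≠ 1) (ht : t ≠ 0) (hP : ∀ y : F, y ^ 2 - t * y + δ ≠ 0) :
    Fpf (comp t δ) := by
  intro S hS h
  have hs : S 1 0 = S 0 1 := by
    have := congrFun (congrFun hS 0) 1
    simpa using this
  have e1 := congrFun (congrFun h 0) 0
  have e2 := congrFun (congrFun h 0) 1
  have e3 := congrFun (congrFun h 1) 1
  simp [comp, Matrix.mul_apply, Fin.sum_univ_two, hs, Matrix.vecMul, dotProduct] at e1 e2 e3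
  obtain ⟨ha, hb, hc⟩ := fpf_alg₁ hδ1 ht (hP 1) (hP (-1)) (S 0 0) (S 0 1) (S 1 1)
    (by linear_combination -e1) (by linear_combination -e2) (by linear_combination -e3)
  ext i j
  fin_cases i <;> fin_cases j <;> simp [ha, hb, hc, hs]

lemma comp_fpf₂ {t δ : F} (hδ0 : δ ≠ 0) (hδ1 : δ ≠ 1) (ht : t ≠ 0) (hP : ∀ y : F, y ^ 2 - t * y + δ ≠ 0)
    (S : M2 F) (hS : Sᵀ = S) (h : (comp t δ)ᵀ * S * comp t δ = S) : S = 0 := by
  have hs : S 1 0 = S 0 1 := by
    have := congrFun (congrFun hS 0) 1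
    simpa using this
  have e1 := congrFun (congrFun h 0) 0
  have e2 := congrFun (congrFun h 0) 1
  have e3 := congrFun (congrFun h 1) 1
  simp [comp, Matrix.mul_apply, Fin.sum_univ_two, hs, Matrix.vecMul, dotProduct] at e1 e2 e3
  obtain ⟨ha, hb, hc⟩ := fpf_alg₂ hδ0 hδ1 ht (hP 1) (hP (-1)) (S 0 0) (S 0 1) (S 1 1)
    (by linear_combination -e1) (by linear_combination -e2) (by linear_combination -e3)
  ext i j
  fin_cases i <;> fin_cases j <;> simp [ha, hb, hc, hs]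

lemma Fpf_inv_transpose {X : GL (Fin 2) F} (h : ∀ S : M2 F, Sᵀ = S → X.1ᵀ * S * X.1 = S → S = 0) :
    Fpf (X⁻¹).1ᵀ := by
  intro S hS h1
  apply h S hS
  rw [transpose_transpose] at h1
  calc X.1ᵀ * S * X.1 = X.1ᵀ * ((X⁻¹).1ᵀ * S * (X⁻¹).1) * X.1 := by rw [h1]
    _ = (X.1ᵀ * (X⁻¹).1ᵀ) * S * ((X⁻¹).1 * X.1) := by simp only [Matrix.mul_assoc]
    _ = S := by rw [GL_transpose_mul, GL_inv_mul, Matrix.one_mul, Matrix.mul_one]

/-- The main theorem: non-central elements are products of two conjugates. -/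
theorem exists_two_conj [Fintype F] (h3 : 3 ≤ Fintype.card F) {t δ : F} (hδ0 : δ ≠ 0) (hδ1 : δ ≠ 1)
    (ht : t ≠ 0) (hP : ∀ y : F, y ^ 2 - t * y + δ ≠ 0) (X₀ : GL (Fin 2) F) (hX₀ : X₀.1 = comp t δ)
    (g : Sp4 F) (hg : g ∉ Subgroup.center (Sp4 F)) :
    ∃ u v : Sp4 F, g = (u * Lv X₀ * u⁻¹) * (v * Lv X₀ * v⁻¹) := by
  have hfpf₁ : Fpf X₀.1 := by
    rw [hX₀]
    exact comp_fpf₁ hδ1 ht hP
  have hfpf₂ : Fpf (X₀⁻¹).1ᵀ := by
    apply Fpf_inv_transpose
    rw [hX₀]
    exact comp_fpf₂ hδ0 hδ1 ht hP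
  obtain ⟨k, hk⟩ := exists_conj_lowerLeft_ne_zero g hg
  obtain ⟨h, hh⟩ := exists_conj_good h3 hδ0 hδ1 (k * g * k⁻¹) hk
  obtain ⟨Y₁, Y₂, hY, hY1t, hY1d, hY2t, hY2d⟩ := exists_factor hδ0 ht hh
  obtain ⟨k₁, hk₁, hk₁'⟩ := exists_conj_comp hP hY1t hY1d
  obtain ⟨k₂, hk₂, hk₂'⟩ := exists_conj_comp hP hY2t hY2d
  let K₁ : GL (Fin 2) F := GeneralLinearGroup.mkOfDetNeZero k₁ hk₁
  let K₂ : GL (Fin 2) F := GeneralLinearGroup.mkOfDetNeZero k₂ hk₂
  have hZ₁ : (K₁ * X₀ * K₁⁻¹).1 = Y₁ := by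
    rw [Units.val_mul, Units.val_mul, hX₀]
    have : K₁.1 = k₁ := rfl
    rw [this, ← hk₁', Matrix.mul_assoc, ← this, GL_mul_inv, Matrix.mul_one]
  have hZ₂ : (K₂ * X₀ * K₂⁻¹).1 = Y₂ := by
    rw [Units.val_mul, Units.val_mul, hX₀]
    have : K₂.1 = k₂ := rfl
    rw [this, ← hk₂', Matrix.mul_assoc, ← this, GL_mul_inv, Matrix.mul_one]
  set Z₁ := K₁ * X₀ * K₁⁻¹ with hZ₁d
  set Z₂ := K₂ * X₀ * K₂⁻¹ with hZ₂d
  set g'' := h * (k * g * k⁻¹) * h⁻¹ with hg''
  obtain ⟨S₁, S₂, h₁, h₂, hLU⟩ := exists_LU g'' (Z₁ * Z₂) (by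
    rw [Units.val_mul, hZ₁, hZ₂, hY])
  have hc₁ : IsConj (Lv X₀) (Lo S₁ h₁ * Lv Z₁) := by
    refine IsConj.trans ?_ (isConj_Lo_mul_Lv (Fpf_conj₂ hfpf₂ K₁) h₁).symm
    rw [isConj_iff]
    exact ⟨Lv K₁, by rw [map_mul, map_mul, map_inv]⟩
  have hc₂ : IsConj (Lv X₀) (Lv Z₂ * Up S₂ h₂) := by
    refine IsConj.trans ?_ (isConj_Lv_mul_Up (Fpf_conj₁ hfpf₁ K₂) h₂).symm
    rw [isConj_iff]
    exact ⟨Lv K₂, by rw [map_mul, map_mul, map_inv]⟩
  obtain ⟨c₁, hc₁⟩ := isConj_iff.mp hc₁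
  obtain ⟨c₂, hc₂⟩ := isConj_iff.mp hc₂
  refine ⟨(h * k)⁻¹ * c₁, (h * k)⁻¹ * c₂, ?_⟩
  have e : g = (h * k)⁻¹ * g'' * (h * k) := by
    rw [hg'']
    group
  have e2 : g'' = (c₁ * Lv X₀ * c₁⁻¹) * (c₂ * Lv X₀ * c₂⁻¹) := by
    rw [hc₁, hc₂, hLU, map_mul]
    group
  rw [e, e2]
  group

end Cfsg.Agent.Lib.ThSp4
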